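import Cfsg.Agent.Lib.H04.Chev.Tab.D4
import Cfsg.Agent.Lib.H04.Chev.Perf
import Cfsg.Prelude.Def_ChevD4

/-! Generated: witnesses for the perfectness for the type D4. -/

set_option autoImplicit false
set_option maxRecDepth 100000

open Cfsg.Lie

namespace Cfsg.Agent.H04.Chev.TD4

theorem checks4 : Checks4 chevD4 T where
  rank_pos := by decide +kernel
  perf := by
    intro r hr
    rw [T_reps] at hr
    simp only [List.mem_cons, List.not_mem_nil, or_false] at hr
    rcases hr with rfl
    · exact Or.inl (Or.inl ⟨6, 22, by decide +kernel, by decide +kernel, by decide +kernel, by decide +kernel, by decide +kernel⟩)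

end Cfsg.Agent.H04.Chev.TD4
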